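import Mathlib
import Cfsg.Agent.S2582
import Cfsg.Agent.Helper7.JordOrth2

set_option autoImplicit false

namespace Cfsg.Agent.Helper7

open Matrix

theorem s2584_bwd {F : Type*} [Field F] [Fintype F] [CharP F 2] {m t : ℕ} (d : Fin t → ℕ)
    (hd : ∀ k, 1 ≤ d k) (hsum : ∑ k, d k = 2 * m)
    (hpar : ∀ j : ℕ, Odd j → Even (Finset.univ.filter (fun k : Fin t => d k = j)).card) :
    ∃ Q : QuadraticForm F (Fin (2 * m) → F), (QuadraticMap.polarBilin Q).Nondegenerate ∧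
      ∃ e : ((k : Fin t) × Fin (d k)) ≃ Fin (2 * m), ∃ A : ↥(Cfsg.isometryGroup F ⇑Q),
        IsConj (Matrix.reindex e e (Cfsg.jordanTypeMatrix d F))
          ((A : Matrix.GeneralLinearGroup (Fin (2 * m)) F) :
            Matrix (Fin (2 * m)) (Fin (2 * m)) F) := by
  classical
  obtain ⟨e0, B, hconj⟩ := (Cfsg.Agent.S2582.result (F := F) d hd hsum).mpr hpar
  obtain ⟨τ⟩ : Nonempty ((Fin m ⊕ Fin m) ≃ Fin (2 * m)) :=
    ⟨finSumFinEquiv.trans (finCongr (two_mul m).symm)⟩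
  obtain ⟨Q, hnd, A, hA⟩ := symp_to_orth2 B τ
  refine ⟨Q, hnd, e0.trans τ, A, ?_⟩
  rw [hA]
  have h1 : Matrix.reindex (e0.trans τ) (e0.trans τ) (Cfsg.jordanTypeMatrix d F) =
      Matrix.reindex τ τ (Matrix.reindex e0 e0 (Cfsg.jordanTypeMatrix d F)) := by
    ext i j; rfl
  rw [h1]
  have h2 := MonoidHom.map_isConj
    (MonoidHomClass.toMonoidHom (Matrix.reindexAlgEquiv F F τ)) hconj
  have h3 : ∀ Z, MonoidHomClass.toMonoidHom (Matrix.reindexAlgEquiv F F τ) Z =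
      Matrix.reindex τ τ Z := by
    intro Z
    show Matrix.reindexAlgEquiv F F τ Z = _
    rw [Matrix.coe_reindexAlgEquiv]
  rw [h3, h3] at h2
  exact h2

end Cfsg.Agent.Helper7
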